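import Cfsg.Agent.H872.TD4.Hex2

/-!
# TEAM TWOCYC (S3507), row `³D₄(2)`: actions in which the long root involution acts (helper872)
-/

set_option autoImplicit false
set_option linter.unusedSectionVars false

namespace Cfsg.Agent.H872.TD4.Act

open Subgroup MulAction Cfsg.Agent.SplitTwo

universe u v w

/-! ### generic lemmas -/

theorem relIndex_sup {C : Type*} [Group C] [Finite C] (S N : Subgroup C) [N.Normal] :
    S.relIndex (S ⊔ N) = S.relIndex N := by
  have h1 : N.relIndex (S ⊔ N) = N.relIndex S := relIndex_sup_right S N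
  have h2 : N.relIndex (S ⊔ N) * Nat.card N = Nat.card ↥(S ⊔ N) :=
    H384.LargeIdx.relIndex_mul_card le_sup_right
  have h3 : S.relIndex (S ⊔ N) * Nat.card S = Nat.card ↥(S ⊔ N) := H384.LargeIdx.relIndex_mul_card le_sup_left
  have h4 : N.relIndex S * Nat.card ↥(N.subgroupOf S) = Nat.card S := by
    rw [mul_comm]; exact card_mul_index (N.subgroupOf S)
  have h5 : S.relIndex N * Nat.card ↥(S.subgroupOf N) = Nat.card N := by
    rw [mul_comm]; exact card_mul_index (S.subgroupOf N)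
  have h6 : Nat.card ↥(S.subgroupOf N) = Nat.card ↥(N.subgroupOf S) :=
    Nat.card_congr ⟨fun x => ⟨⟨x.1.1, x.2⟩, x.1.2⟩, fun x => ⟨⟨x.1.1, x.2⟩, x.1.2⟩, fun _ => rfl, fun _ => rfl⟩
  have h7 : 0 < Nat.card S := Nat.card_pos
  apply Nat.eq_of_mul_eq_mul_right h7
  rw [h3, ← h2, h1, ← h4, ← h5, h6]
  ring

/-- an element of prime order `p` lies in every subgroup of index less than `p`, and in the core -/
theorem mem_normalCore {C : Type*} [Group C] [Finite C] {p : ℕ} (hp : p.Prime) (M : Subgroup C) (hM : M.index < p)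
    {h : C} (hh : h ^ p = 1) : h ∈ M.normalCore := by
  classical
  rw [M.normalCore_eq_ker, MonoidHom.mem_ker]
  have : Fintype (C ⧸ M) := Fintype.ofFinite _
  have h1 : orderOf (MulAction.toPermHom C (C ⧸ M) h) ∣ p := by
    apply orderOf_dvd_of_pow_eq_one
    rw [← map_pow, hh, map_one]
  have h2 : orderOf (MulAction.toPermHom C (C ⧸ M) h) ∣ (Fintype.card (C ⧸ M)).factorial := by
    rw [← Fintype.card_perm]
    exact orderOf_dvd_card
  rcases (Nat.dvd_prime hp).1 h1 with h3 | h3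
  · exact orderOf_eq_one_iff.1 h3
  · exfalso
    rw [h3, hp.dvd_factorial] at h2
    have h4 : M.index = Fintype.card (C ⧸ M) := by rw [index_eq_card, Nat.card_eq_fintype_card]
    omega

theorem le_normalizer {C : Type*} [Group C] {L B : Subgroup C} (h : ∀ y ∈ L, ∀ b ∈ B, y * b * y⁻¹ ∈ B) :
    L ≤ normalizer (B : Set C) := by
  intro y hy
  rw [mem_normalizer_iff]
  intro b
  refine ⟨h y hy b, fun hb => ?_⟩
  have := h y⁻¹ (L.inv_mem hy) _ hb
  rwa [inv_inv, show y⁻¹ * (y * b * y⁻¹) * y = b by group] at this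

/-- `A ∪ A z` -/
def adj {C : Type*} [Group C] (A : Subgroup C) (z : C) (hz : z * z = 1) (hc : ∀ x ∈ A, x * z = z * x) : Subgroup C where
  carrier := {x | x ∈ A ∨ x * z ∈ A}
  one_mem' := Or.inl A.one_mem
  mul_mem' := by
    have hcom : ∀ x, x ∈ A ∨ x * z ∈ A → x * z = z * x := by
      rintro x (hx | hx)
      · exact hc x hx
      · have h1 := hc _ hx
        rw [mul_assoc, hz, mul_one] at h1
        calc x * z = z * z * (x * z) := by rw [hz, one_mul]
          _ = z * (z * (x * z)) := by group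
          _ = _ := by rw [← h1]
    intro a b ha hb
    have hbz := hcom b hb
    rcases ha with ha | ha <;> rcases hb with hb | hb
    · exact Or.inl (A.mul_mem ha hb)
    · right; rw [mul_assoc]; exact A.mul_mem ha hb
    · right
      have : a * b * z = a * z * b := by rw [mul_assoc, hbz, ← mul_assoc]
      rw [this]; exact A.mul_mem ha hb
    · left
      have : a * b = a * z * (b * z) := by
        rw [hbz]
        calc a * b = a * (z * z) * b := by rw [hz, mul_one]
          _ = _ := by group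
      rw [this]; exact A.mul_mem ha hb
  inv_mem' := by
    intro a ha
    rcases ha with ha | ha
    · exact Or.inl (A.inv_mem ha)
    · right
      have h1 := hc _ ha
      rw [mul_assoc, hz, mul_one] at h1
      have : a⁻¹ * z = (a * z)⁻¹ := by
        have hzi : z⁻¹ = z := inv_eq_of_mul_eq_one_left hz
        have h2 : a * z = z * a := by
          calc a * z = z * z * (a * z) := by rw [hz, one_mul]
            _ = z * (z * (a * z)) := by group
            _ = _ := by rw [← h1]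
        rw [h2, mul_inv_rev, hzi]
      rw [this]; exact A.inv_mem ha

theorem mem_adj {C : Type*} [Group C] {A : Subgroup C} {z : C} {hz : z * z = 1} {hc : ∀ x ∈ A, x * z = z * x} {x : C} :
    x ∈ adj A z hz hc ↔ x ∈ A ∨ x * z ∈ A := Iff.rfl

/-! ### the argument -/

variable {G : Type u} [Group G] {E : Type v} [Field E] {σ : E ≃+* E} {X : ZMod (2 * 6) → Subgroup G}
  {x1 x2 x3 x4 x5 x6 : E → G}

open Hex

theorem conj_QQ {n : G} {f : ZMod (2 * 6) → ZMod (2 * 6)} (hf : ∀ k, (k = 2 ∨ k = 3 ∨ k = 4 ∨ k = 5 ∨ k = 6) →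
    (f k = 2 ∨ f k = 3 ∨ f k = 4 ∨ f k = 5 ∨ f k = 6))
    (hn : ∀ k x, x ∈ X k → n * x * n⁻¹ ∈ X (f k)) {x : G} (hx : x ∈ HD.QQ X) : n * x * n⁻¹ ∈ HD.QQ X := by
  have h1 : HD.QQ X ≤ (HD.QQ X).comap (MulAut.conj n).toMonoidHom := by
    have h2 : ∀ k, (k = 2 ∨ k = 3 ∨ k = 4 ∨ k = 5 ∨ k = 6) → X k ≤ (HD.QQ X).comap (MulAut.conj n).toMonoidHom := by
      intro k hk y hy
      exact HD.X_le _ (hf k hk) (hn k y hy)
    unfold HD.QQ
    refine sup_le (sup_le (sup_le (sup_le ?_ ?_) ?_) ?_) ?_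
    · exact h2 2 (by simp)
    · exact h2 3 (by simp)
    · exact h2 4 (by simp)
    · exact h2 5 (by simp)
    · exact h2 6 (by simp)
  exact h1 hx

theorem card_ge (H : HD σ X x1 x2 x3 x4 x5 x6) [Finite G] [Finite E] (hE : 8 ≤ Nat.card E) {n : G}
    (hn' : ∀ k x, n * x * n⁻¹ ∈ X (8 - k) ↔ x ∈ X k) {h : G} (h7 : h ^ 7 = 1)
    (hh : ∀ k x, x ∈ X k → h * x * h⁻¹ ∈ X k)
    (hx : ∀ a, ∃ b, x1 a = h * x1 b * h⁻¹ * (x1 b)⁻¹) {Ω : Type w} [MulAction G Ω] [Finite Ω] {ω : Ω}
    (hω : x4 1 • ω ≠ ω) : 224 ≤ Nat.card Ω := by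
  classical
  have hn : ∀ k x, x ∈ X k → n * x * n⁻¹ ∈ X (8 - k) := fun k x => (hn' k x).2
  by_contra hlt
  rw [not_le] at hlt
  set Q : Subgroup G := HD.QQ X with hQ
  set z : G := x4 1 with hz
  -- the subgroup `P`
  let P : Subgroup G := normalizer (Q : Set G) ⊓ centralizer ({z} : Set G)
  have hP : ∀ g, (∀ x ∈ Q, g * x * g⁻¹ ∈ Q) → g * z = z * g → g ∈ P := by
    intro g h1 h2
    have h3 : Nat.card Q = Nat.card (Q.map (MulAut.conj g).toMonoidHom) :=
      Nat.card_congr (Q.equivMapOfInjective _ (MulAut.conj g).injective).toEquiv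
    have h4 : Q.map (MulAut.conj g).toMonoidHom ≤ Q := by
      rintro _ ⟨x, hx, rfl⟩
      exact h1 x hx
    have h5 : Q.map (MulAut.conj g).toMonoidHom = Q := Subgroup.eq_of_le_of_card_ge h4 h3.le
    refine ⟨mem_normalizer_iff.2 fun x => ?_, mem_centralizer_singleton_iff.2 h2⟩
    refine ⟨h1 x, fun hx => ?_⟩
    rw [← h5] at hx
    obtain ⟨y, hy, hyx⟩ := hx
    have : y = x := (MulAut.conj g).injective hyx
    exact this ▸ hy
  have hPz : ∀ g ∈ P, g * z = z * g := fun g hg => mem_centralizer_singleton_iff.1 hg.2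
  have hPQ : ∀ g ∈ P, ∀ x ∈ Q, g * x * g⁻¹ ∈ Q := fun g hg x hx => (mem_normalizer_iff.1 hg.1 x).1 hx
  have hX4 : ∀ g ∈ X 4, g = 1 ∨ g = z := by
    intro g hg
    obtain ⟨a, ha, rfl⟩ := (H.par.mem4 g).1 hg
    exact H.x4_cases ha
  have hz4 : z ∈ X 4 := (H.par.mem4 z).2 ⟨1, H.σ1, rfl⟩
  have hfix : ∀ g, (g * z * g⁻¹ ∈ X 4) → g * z = z * g := by
    intro g hg
    rcases hX4 _ hg with h1 | h1
    · exfalso
      have h2 : z = 1 := by
        have : z = g⁻¹ * (g * z * g⁻¹) * g := by group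
        rw [this, h1]; group
      exact H.z_ne h2
    · exact mul_inv_eq_iff_eq_mul.1 h1
  have hzQ : z ∈ Q := H.z_mem
  have hQP : Q ≤ P := by
    intro g hg
    exact hP g (fun x hx => mul_mem (mul_mem hg hx) (inv_mem hg)) (H.comm_z hg)
  have hhP : h ∈ P := hP h (fun x hx => conj_QQ (f := id) (fun k hk => hk) hh hx) (hfix h (hh 4 z hz4))
  have hnP : n ∈ P := by
    refine hP n (fun x hx => conj_QQ (f := fun k => 8 - k) ?_ hn hx) (hfix n ?_)
    · rintro k (rfl | rfl | rfl | rfl | rfl) <;> decide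
    · have := hn 4 z hz4
      rwa [show (8 : ZMod (2 * 6)) - 4 = 4 by decide] at this
  have hx1P : ∀ t, x1 t ∈ P := by
    intro t
    refine hP _ (fun x hx => ?_) (H.c14 H.σ1).eq
    have h1 := H.conj_mem t hx
    rw [H.x1_inv] at h1 ⊢
    exact h1
  -- the stabiliser
  let S : Subgroup P := (stabilizer G ω).subgroupOf P
  let QP : Subgroup P := Q.subgroupOf P
  have hQPn : QP.Normal := ⟨fun x hx g => hPQ g g.2 x hx⟩
  let A : Subgroup G := stabilizer G ω ⊓ Q
  have hzA : z ∉ A := fun h => hω h.1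
  have hrelA : A.relIndex Q = (stabilizer G ω).relIndex Q := inf_relIndex_right _ _
  have h32 : 32 ≤ A.relIndex Q := by
    have h1 := H.index_sq hzA
    have h2 := H.card_le
    by_contra hlt2
    rw [not_le] at hlt2
    have h3 : A.relIndex Q ^ 2 ≤ 31 ^ 2 := Nat.pow_le_pow_left (by omega) 2
    have h4 : 8 ^ 2 ≤ Nat.card E ^ 2 := Nat.pow_le_pow_left hE 2
    change 2 * Nat.card Q ≤ A.relIndex Q ^ 2 at h1
    change 8 * Nat.card E ^ 2 ≤ Nat.card Q at h2
    omega
  have hSQ : S.relIndex QP = A.relIndex Q := by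
    rw [hrelA]
    exact relIndex_subgroupOf hQP
  have hSi : S.index = S.relIndex (S ⊔ QP) * (S ⊔ QP).index := (relIndex_mul_index le_sup_left).symm
  have hle : S.index ≤ Nat.card Ω := by
    have h1 : S = stabilizer P ω := by ext; rfl
    rw [h1, index_stabilizer]
    exact Nat.card_le_card_of_injective _ Subtype.val_injective
  rw [relIndex_sup, hSQ] at hSi
  set M : Subgroup P := S ⊔ QP with hM
  have hMi : M.index < 7 := by
    by_contra h1
    rw [not_lt] at h1
    have h2 : 32 * 7 ≤ A.relIndex Q * M.index := Nat.mul_le_mul h32 h1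
    omega
  -- the core
  have hhN : (⟨h, hhP⟩ : P) ∈ M.normalCore :=
    mem_normalCore (by norm_num) M hMi (Subtype.ext (by simpa using h7))
  have hNn : M.normalCore.Normal := inferInstance
  have hx1N : ∀ a, (⟨x1 a, hx1P a⟩ : P) ∈ M.normalCore := by
    intro a
    obtain ⟨b, hb⟩ := hx a
    have e1 : (⟨x1 a, hx1P a⟩ : P) = ⟨h, hhP⟩ * (⟨x1 b, hx1P b⟩ * ⟨h, hhP⟩⁻¹ * ⟨x1 b, hx1P b⟩⁻¹) :=
      Subtype.ext (by
        show x1 a = h * (x1 b * h⁻¹ * (x1 b)⁻¹)
        rw [hb]; group)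
    rw [e1]
    exact mul_mem hhN (hNn.conj_mem _ (inv_mem hhN) _)
  have hx1N' : ∀ a, (⟨n, hnP⟩⁻¹ * ⟨x1 a, hx1P a⟩ * ⟨n, hnP⟩ : P) ∈ M.normalCore := by
    intro a
    have := hNn.conj_mem _ (hx1N a) (⟨n, hnP⟩⁻¹)
    rwa [inv_inv] at this
  -- the subgroup `B`
  have hAQ : A ≤ Q := inf_le_right
  let B : Subgroup G := adj A z H.zz (fun x hx => H.comm_z (hAQ hx))
  have hAB : A ≤ B := fun x hx => mem_adj.2 (Or.inl hx)
  have hzB : z ∈ B := mem_adj.2 (Or.inr (by rw [H.zz]; exact A.one_mem))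
  have hBQ : B ≤ Q := by
    intro x hx
    rcases mem_adj.1 hx with h1 | h1
    · exact hAQ h1
    · have := mul_mem (hAQ h1) (inv_mem hzQ)
      rwa [mul_inv_cancel_right] at this
  have hMB : ∀ y ∈ M, ∀ b ∈ B, (y : G) * b * (y : G)⁻¹ ∈ B := by
    have h1 : M ≤ (normalizer (B : Set G)).comap P.subtype := by
      refine sup_le ?_ ?_
      · have h2 : S.map P.subtype ≤ normalizer (B : Set G) := by
          apply le_normalizer
          rintro _ ⟨y, hy, rfl⟩ b hb
          have hyω : (y : G) • ω = ω := hy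
          have hyA : ∀ b ∈ A, (y : G) * b * (y : G)⁻¹ ∈ A := by
            intro b hb
            refine ⟨?_, hPQ y y.2 b hb.2⟩
            have hbω : b • ω = ω := hb.1
            show ((y : G) * b * (y : G)⁻¹) • ω = ω
            have hyi : (y : G)⁻¹ • ω = ω := by rw [inv_smul_eq_iff, hyω]
            rw [mul_smul, mul_smul, hyi, hbω, hyω]
          rcases mem_adj.1 hb with h3 | h3
          · exact mem_adj.2 (Or.inl (hyA b h3))
          · refine mem_adj.2 (Or.inr ?_)
            have h4 := hyA _ h3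
            have h5 := hPz y y.2
            have h6 : (y : G) * (b * z) * (y : G)⁻¹ = (y : G) * b * (y : G)⁻¹ * z := by
              calc (y : G) * (b * z) * (y : G)⁻¹ = y * b * (y : G)⁻¹ * (y * z) * (y : G)⁻¹ := by group
                _ = _ := by rw [h5]; group
            rw [h6] at h4
            exact h4
        intro y hy
        exact h2 ⟨y, hy, rfl⟩
      · have h2 : QP.map P.subtype ≤ normalizer (B : Set G) := by
          apply le_normalizer
          rintro _ ⟨y, hy, rfl⟩ b hb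
          have hyQ : (y : G) ∈ Q := hy
          rcases H.comm_cases hyQ (hBQ hb) with h3 | h3
          · have : (y : G) * b * (y : G)⁻¹ = b := by rw [h3, mul_inv_cancel_right]
            change (y : G) * b * (y : G)⁻¹ ∈ B
            rw [this]; exact hb
          · have : (y : G) * b * (y : G)⁻¹ = b * z := by
              have h4 : (y : G) * z = z * y := H.comm_z hyQ
              rw [h3]
              change b * (y : G) * z * (y : G)⁻¹ = b * z
              rw [mul_assoc b, h4]; group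
            change (y : G) * b * (y : G)⁻¹ ∈ B
            rw [this]; exact mul_mem hb hzB
        intro y hy
        exact h2 ⟨y, hy, rfl⟩
    intro y hy b hb
    exact (mem_normalizer_iff.1 (h1 hy) b).1 hb
  have hNB : ∀ y ∈ M.normalCore, ∀ b ∈ B, (y : G)⁻¹ * b * (y : G) ∈ B := by
    intro y hy b hb
    have := hMB _ (inv_mem (normalCore_le M hy)) b hb
    simpa using this
  -- `A` is not trivial
  obtain ⟨b0, hb0, hb1⟩ : ∃ b ∈ A, b ≠ 1 := by
    by_contra hne
    push Not at hne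
    have h1 : A = ⊥ := (eq_bot_iff_forall A).2 hne
    have h2 : A.relIndex Q ≤ Nat.card Ω := by
      have h3 : A.relIndex Q * 1 ≤ A.relIndex Q * M.index :=
        Nat.mul_le_mul_left _ (Nat.one_le_iff_ne_zero.2 index_ne_zero_of_finite)
      omega
    rw [h1, relIndex_bot_left] at h2
    have h4 := H.card_le
    change 8 * Nat.card E ^ 2 ≤ Nat.card Q at h4
    have h5 : 8 ^ 2 ≤ Nat.card E ^ 2 := Nat.pow_le_pow_left hE 2
    omega
  have hbz : b0 ≠ z := fun h => hzA (h ▸ hb0)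
  -- `x₂(1) ∈ B`
  have m2 : x2 1 ∈ B := H.x2_mem hBQ hzB (fun t b hb => hNB _ (hx1N t) b hb) (hAB hb0) hb1 hbz
  -- the conjugate of `B`
  let B' : Subgroup G := B.map (MulAut.conj n).toMonoidHom
  have hB' : ∀ x, x ∈ B' ↔ n⁻¹ * x * n ∈ B := by
    intro x
    constructor
    · rintro ⟨y, hy, rfl⟩
      have : n⁻¹ * (n * y * n⁻¹) * n = y := by group
      show n⁻¹ * (n * y * n⁻¹) * n ∈ B
      rw [this]; exact hy
    · intro hx
      refine ⟨_, hx, ?_⟩
      show n * (n⁻¹ * x * n) * n⁻¹ = x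
      group
  have hnz : n * z = z * n := hPz n hnP
  have hzB' : z ∈ B' := by
    rw [hB', mul_assoc, ← hnz, inv_mul_cancel_left]; exact hzB
  have hB'Q : B' ≤ Q := by
    rintro _ ⟨y, hy, rfl⟩
    exact hPQ n hnP y (hBQ hy)
  have m6 : x2 1 ∈ B' := by
    refine H.x2_mem hB'Q hzB' ?_ (b0 := n * b0 * n⁻¹) ?_ ?_ ?_
    · intro t b hb
      rw [hB'] at hb ⊢
      have := hNB _ (hx1N' t) _ hb
      have e1 : ((⟨n, hnP⟩⁻¹ * ⟨x1 t, hx1P t⟩ * ⟨n, hnP⟩ : P) : G) = n⁻¹ * x1 t * n := rfl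
      rw [e1] at this
      have e2 : (n⁻¹ * x1 t * n)⁻¹ * (n⁻¹ * b * n) * (n⁻¹ * x1 t * n) = n⁻¹ * ((x1 t)⁻¹ * b * x1 t) * n := by group
      rwa [e2] at this
    · rw [hB']
      have : n⁻¹ * (n * b0 * n⁻¹) * n = b0 := by group
      rw [this]; exact hAB hb0
    · intro h1
      exact hb1 (conj_eq_one_iff.1 h1)
    · intro h1
      apply hbz
      rw [mul_inv_eq_iff_eq_mul, ← hnz] at h1
      exact mul_left_cancel h1
  rw [hB'] at m6
  -- `n⁻¹ x₂(1) n = x₆(1)`
  have h6 : n⁻¹ * x2 1 * n = x6 1 := by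
    have h1 : n⁻¹ * x2 1 * n ∈ X 6 := by
      rw [← hn' 6]
      have e1 : n * (n⁻¹ * x2 1 * n) * n⁻¹ = x2 1 := by group
      rw [e1, show (8 : ZMod (2 * 6)) - 6 = 2 by decide]
      exact (H.par.mem2 _).2 ⟨1, H.σ1, rfl⟩
    obtain ⟨e, he, h2⟩ := (H.par.mem6 _).1 h1
    rcases H.fix e he with rfl | rfl
    · exfalso
      rw [H.x6_zero] at h2
      have h3 : x2 1 = 1 := by
        have : x2 1 = n * (n⁻¹ * x2 1 * n) * n⁻¹ := by group
        rw [this, ← h2]; group
      rw [← H.x2_zero] at h3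
      exact one_ne_zero (H.par.inj2 1 0 H.σ1 H.σ0 h3)
    · exact h2.symm
  rw [h6] at m6
  -- `B` is commutative
  have cA : ∀ x ∈ A, ∀ y ∈ A, x * y = y * x := by
    intro x hx y hy
    rcases H.comm_cases (hAQ hx) (hAQ hy) with h1 | h1
    · exact h1
    · exfalso
      apply hzA
      have : z = (y * x)⁻¹ * (x * y) := by rw [h1]; show x4 1 = _; group
      rw [this]
      exact A.mul_mem (A.inv_mem (A.mul_mem hy hx)) (A.mul_mem hx hy)
  have key : ∀ x ∈ Q, ∀ y ∈ Q, (x * z) * y = y * (x * z) → x * y = y * x := by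
    intro x _ y hy h1
    have h2 : z * y = y * z := (H.comm_z hy).symm
    rw [mul_assoc, h2, ← mul_assoc, ← mul_assoc] at h1
    exact mul_right_cancel h1
  have cB1 : ∀ x ∈ B, ∀ y ∈ A, x * y = y * x := by
    intro x hx y hy
    rcases mem_adj.1 hx with h1 | h1
    · exact cA x h1 y hy
    · exact key x (hBQ hx) y (hAQ hy) (cA _ h1 y hy)
  have cB : ∀ x ∈ B, ∀ y ∈ B, x * y = y * x := by
    intro x hx y hy
    rcases mem_adj.1 hy with h1 | h1
    · exact cB1 x hx y h1
    · exact (key y (hBQ hy) x (hBQ hx) (cB1 x hx _ h1).symm).symm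
  have h8 := cB _ m6 _ m2
  rw [H.m62 H.σ1 H.σ1, mul_one] at h8
  exact H.z_ne (mul_eq_left.1 h8)

end Cfsg.Agent.H872.TD4.Act
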