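import Cfsg.Agent.H872.TD4.Hex

/-!
# TEAM TWOCYC (S3507), row `³D₄(2)`: subgroups of the extraspecial group normalised by `X 1` (helper872)
-/

set_option autoImplicit false
set_option linter.unusedSectionVars false

namespace Cfsg.Agent.H872.TD4.Hex

open Cfsg.Agent.SplitTwo Cfsg.Agent.Co2Type.Quad

universe u v

variable {G : Type u} [Group G] {E : Type v} [Field E] {σ : E ≃+* E} {X : ZMod (2 * 6) → Subgroup G}
  {x1 x2 x3 x4 x5 x6 : E → G}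

namespace HD

variable (H : HD σ X x1 x2 x3 x4 x5 x6)

/-- normal forms up to the centre -/
structure NF (σ : E ≃+* E) (x2 x3 x4 x5 x6 : E → G) (a b d e : E) (g : G) : Prop where
  ha : σ a = a
  he : σ e = e
  eq : ∃ c, σ c = c ∧ g = x2 a * x3 b * x4 c * x5 d * x6 e

include H

theorem NF.congr {a b d e a' b' d' e' : E} {g : G} (h : NF σ x2 x3 x4 x5 x6 a b d e g) (h1 : a = a') (h2 : b = b')
    (h3 : d = d') (h4 : e = e') : NF σ x2 x3 x4 x5 x6 a' b' d' e' g := by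
  subst h1 h2 h3 h4; exact h

theorem NF.mul {a b d e a' b' d' e' : E} {g g' : G} (h : NF σ x2 x3 x4 x5 x6 a b d e g)
    (h' : NF σ x2 x3 x4 x5 x6 a' b' d' e' g') :
    NF σ x2 x3 x4 x5 x6 (a + a') (b + b') (d + d') (e + e') (g * g') := by
  obtain ⟨ha, he, c, hc, rfl⟩ := h
  obtain ⟨ha', he', c', hc', rfl⟩ := h'
  refine ⟨H.σadd ha ha', H.σadd he he', _, ?_, H.nmul b d b' d' ha hc he ha' hc' he'⟩
  exact H.σadd (H.σadd (H.σadd hc (by rw [map_mul, ha', he])) (H.σtrc _ _)) hc'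

theorem nf2 {a : E} (ha : σ a = a) : NF σ x2 x3 x4 x5 x6 a 0 0 0 (x2 a) :=
  ⟨ha, H.σ0, 0, H.σ0, H.f2 a⟩
theorem nf3 (b : E) : NF σ x2 x3 x4 x5 x6 0 b 0 0 (x3 b) := ⟨H.σ0, H.σ0, 0, H.σ0, H.f3 b⟩
theorem nf4 {c : E} (hc : σ c = c) : NF σ x2 x3 x4 x5 x6 0 0 0 0 (x4 c) :=
  ⟨H.σ0, H.σ0, c, hc, by rw [H.x2_zero, H.x3_zero, H.x5_zero, H.x6_zero]; group⟩
theorem nf5 (d : E) : NF σ x2 x3 x4 x5 x6 0 0 d 0 (x5 d) := ⟨H.σ0, H.σ0, 0, H.σ0, H.f5 d⟩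
theorem nf6 {e : E} (he : σ e = e) : NF σ x2 x3 x4 x5 x6 0 0 0 e (x6 e) := ⟨H.σ0, he, 0, H.σ0, H.f6 e⟩

theorem x3_inv (b : E) : (x3 b)⁻¹ = x3 b := inv_eq_of_mul_eq_one_left (H.x3_sq b)
theorem x5_inv (b : E) : (x5 b)⁻¹ = x5 b := inv_eq_of_mul_eq_one_left (H.x5_sq b)
theorem x1_inv (b : E) : (x1 b)⁻¹ = x1 b := inv_eq_of_mul_eq_one_left (H.x1_sq b)
theorem x6_inv {b : E} (hb : σ b = b) : (x6 b)⁻¹ = x6 b := inv_eq_of_mul_eq_one_left (H.x6_sq hb)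

/-- conjugation by `x₁(t)` -/
theorem NF.conj (t : E) {a b d e : E} {g : G} (h : NF σ x2 x3 x4 x5 x6 a b d e g) :
    NF σ x2 x3 x4 x5 x6 (a + SplitTwo.trc σ t b + SplitTwo.trc σ (shp σ t) d + e * SplitTwo.nrm σ t)
      (b + SplitTwo.crs σ t d + e * shp σ t) (d + e * t) e ((x1 t)⁻¹ * g * x1 t) := by
  obtain ⟨ha, he, c, hc, rfl⟩ := h
  have y2 : (x1 t)⁻¹ * x2 a * x1 t = x2 a := by
    rw [mul_assoc, ← (H.c12 (a := t) ha).eq, inv_mul_cancel_left]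
  have y4 : (x1 t)⁻¹ * x4 c * x1 t = x4 c := by
    rw [mul_assoc, ← (H.c14 (a := t) hc).eq, inv_mul_cancel_left]
  have y3 : (x1 t)⁻¹ * x3 b * x1 t = x2 (SplitTwo.trc σ t b) * x3 b := by
    rw [← H.par.rel.c13 t b]
    unfold kk
    rw [H.x3_inv, mul_assoc ((x1 t)⁻¹ * x3 b * x1 t), H.x3_sq, mul_one]
  have y5 : (x1 t)⁻¹ * x5 d * x1 t = x2 (-(SplitTwo.trc σ (shp σ t) d)) * x3 (SplitTwo.crs σ t d) *
      x4 (SplitTwo.trc σ t (shp σ d)) * x5 d := by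
    rw [← H.par.rel.c15 t d]
    unfold kk
    rw [H.x5_inv, mul_assoc ((x1 t)⁻¹ * x5 d * x1 t), H.x5_sq, mul_one]
  have y6 : (x1 t)⁻¹ * x6 e * x1 t = x2 (-(e * SplitTwo.nrm σ t)) * x3 (e * shp σ t) *
      x4 (e ^ 2 * SplitTwo.nrm σ t) * x5 (-(e * t)) * x6 e := by
    rw [← H.par.rel.c16 t e he]
    unfold kk
    rw [H.x6_inv he, mul_assoc ((x1 t)⁻¹ * x6 e * x1 t), H.x6_sq he, mul_one]
  have e1 : (x1 t)⁻¹ * (x2 a * x3 b * x4 c * x5 d * x6 e) * x1 t =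
      ((x1 t)⁻¹ * x2 a * x1 t) * ((x1 t)⁻¹ * x3 b * x1 t) * ((x1 t)⁻¹ * x4 c * x1 t) *
        ((x1 t)⁻¹ * x5 d * x1 t) * ((x1 t)⁻¹ * x6 e * x1 t) := by group
  have s1 : σ (-(SplitTwo.trc σ (shp σ t) d)) = -(SplitTwo.trc σ (shp σ t) d) := by rw [map_neg, H.σtrc]
  have s2 : σ (-(e * SplitTwo.nrm σ t)) = -(e * SplitTwo.nrm σ t) := by rw [map_neg, map_mul, he, H.σnrm]
  have s3 : σ (e ^ 2 * SplitTwo.nrm σ t) = e ^ 2 * SplitTwo.nrm σ t := by rw [map_mul, map_pow, he, H.σnrm]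
  have s4 : σ (SplitTwo.trc σ t (shp σ d)) = SplitTwo.trc σ t (shp σ d) := H.σtrc _ _
  rw [e1, y2, y3, y4, y5, y6]
  have n1 := NF.mul H (NF.mul H (NF.mul H (NF.mul H (H.nf2 ha) (NF.mul H (H.nf2 (H.σtrc t b)) (H.nf3 b))) (H.nf4 hc))
    (NF.mul H (NF.mul H (NF.mul H (H.nf2 s1) (H.nf3 (SplitTwo.crs σ t d))) (H.nf4 s4)) (H.nf5 d)))
    (NF.mul H (NF.mul H (NF.mul H (NF.mul H (H.nf2 s2) (H.nf3 (e * shp σ t))) (H.nf4 s3)) (H.nf5 (-(e * t)))) (H.nf6 he))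
  refine NF.congr H n1 ?_ ?_ ?_ ?_
  · rw [H.neg_eq, H.neg_eq]; ring
  · ring
  · rw [H.neg_eq]; ring
  · ring

theorem NF.comm (t : E) {a b d e : E} {g : G} (h : NF σ x2 x3 x4 x5 x6 a b d e g) :
    NF σ x2 x3 x4 x5 x6 (SplitTwo.trc σ t b + SplitTwo.trc σ (shp σ t) d + e * SplitTwo.nrm σ t)
      (SplitTwo.crs σ t d + e * shp σ t) (e * t) 0 ((x1 t)⁻¹ * g * x1 t * g) := by
  refine NF.congr H (NF.mul H (NF.conj H t h) h) ?_ ?_ ?_ (H.add_self e)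
  · linear_combination H.add_self a
  · linear_combination H.add_self b
  · linear_combination H.add_self d

theorem exists_nf {g : G} (hg : g ∈ QQ X) : ∃ a b d e, NF σ x2 x3 x4 x5 x6 a b d e g := by
  obtain ⟨a, b, c, d, e, ha, hc, he, rfl⟩ := H.nf hg
  exact ⟨a, b, d, e, ha, he, c, hc, rfl⟩

theorem NF.mem {a b d e : E} {g : G} (h : NF σ x2 x3 x4 x5 x6 a b d e g) : g ∈ QQ X := by
  obtain ⟨ha, he, c, hc, rfl⟩ := h
  exact H.nf_mem b d ha hc he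

theorem conj_mem (t : E) {g : G} (hg : g ∈ QQ X) : (x1 t)⁻¹ * g * x1 t ∈ QQ X := by
  obtain ⟨a, b, d, e, h⟩ := H.exists_nf hg
  exact NF.mem H (NF.conj H t h)

/-- **A subgroup of `Q` normalised by `X₁`, containing `z` and another element, contains `x₂(1)`.** -/
theorem x2_mem {B : Subgroup G} (hB : B ≤ QQ X) (hz : x4 1 ∈ B) (hn : ∀ t, ∀ b ∈ B, (x1 t)⁻¹ * b * x1 t ∈ B)
    {b0 : G} (hb : b0 ∈ B) (h1 : b0 ≠ 1) (hbz : b0 ≠ x4 1) : x2 1 ∈ B := by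
  have hx4 : ∀ c, σ c = c → x4 c ∈ B := by
    intro c hc
    rcases H.x4_cases hc with h | h
    · rw [h]; exact one_mem B
    · rw [h]; exact hz
  have hc : ∀ t g, g ∈ B → (x1 t)⁻¹ * g * x1 t * g ∈ B := fun t g hg => mul_mem (hn t g hg) hg
  -- level 2
  have l2 : ∀ g a, g ∈ B → NF σ x2 x3 x4 x5 x6 a 0 0 0 g → a ≠ 0 → x2 1 ∈ B := by
    rintro g a hg ⟨ha, -, c, hc, rfl⟩ h0
    rcases H.fix a ha with rfl | rfl
    · exact absurd rfl h0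
    · rw [H.x3_zero, H.x5_zero, H.x6_zero, mul_one, mul_one, mul_one] at hg
      have := mul_mem hg (inv_mem (hx4 c hc))
      rwa [mul_inv_cancel_right] at this
  -- level 3
  have l3 : ∀ g a b, g ∈ B → NF σ x2 x3 x4 x5 x6 a b 0 0 g → b ≠ 0 → x2 1 ∈ B := by
    intro g a b hg hf hb0
    obtain ⟨s, hs⟩ := H.trc b hb0
    refine l2 _ 1 (hc s g hg) (NF.congr H (NF.comm H s hf) ?_ ?_ ?_ rfl) one_ne_zero
    · rw [hs, H.trc0r]; ring
    · unfold SplitTwo.crs; simp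
    · ring
  -- level 5
  have l5 : ∀ g a b d, g ∈ B → NF σ x2 x3 x4 x5 x6 a b d 0 g → d ≠ 0 → x2 1 ∈ B := by
    intro g a b d hg hf hd0
    obtain ⟨s, hs⟩ := H.crs d hd0
    refine l3 _ _ _ (hc s g hg) (NF.congr H (NF.comm H s hf) rfl ?_ ?_ rfl) hs
    · ring
    · ring
  obtain ⟨a, b, d, e, hf⟩ := H.exists_nf (hB hb)
  by_cases he : e = 0
  · subst he
    by_cases hd : d = 0
    · subst hd
      by_cases hb0 : b = 0
      · subst hb0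
        by_cases ha : a = 0
        · subst ha
          exfalso
          obtain ⟨-, -, c, hc, rfl⟩ := hf
          rw [H.x2_zero, H.x3_zero, H.x5_zero, H.x6_zero, one_mul, one_mul, mul_one, mul_one] at h1 hbz
          rcases H.x4_cases hc with h | h
          · exact h1 h
          · exact hbz h
        · exact l2 _ _ hb hf ha
      · exact l3 _ _ _ hb hf hb0
    · exact l5 _ _ _ _ hb hf hd
  · rcases H.fix e hf.he with h | h
    · exact absurd h he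
    · subst h
      refine l5 _ _ _ 1 (hc 1 _ hb) (NF.congr H (NF.comm H 1 hf) rfl rfl ?_ rfl) one_ne_zero
      ring

end HD

end Cfsg.Agent.H872.TD4.Hex
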